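import Mathlib
import Cfsg.Agent.H364.SpEnum
import Cfsg.Agent.H364.SpOut
import Cfsg.Agent.H221.CS.Data

/-!
# S3677, rows `PSp(8, q)`, `PΩ(9, q)`: no simple group of Lie type in cross characteristic (helper545)
-/

set_option autoImplicit false
set_option linter.unusedVariables false

namespace Cfsg.Agent.H545.CS

open Subgroup Cfsg Cfsg.Agent.OrdDiv Cfsg.Agent.H902 Cfsg.Agent.H902.Names Cfsg.Agent.H221.CS
open Cfsg.Agent.H902.Lte Cfsg.Agent.H902.Art Cfsg.Agent.H364.SpVal Cfsg.Agent.H364.SpCross Cfsg.Agent.H364.SpSmall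
  Cfsg.Agent.H364.SpEnum

universe u

/-- the quotient by the socle -/
theorem index_dvd {X : Type*} [Group X] [Finite X] (S : Subgroup X) [S.Normal] [IsSimpleGroup S]
    (hna : ¬ IsMulCommutative S) (hc : Subgroup.centralizer (S : Set X) = ⊥) : S.index ∣ Nat.card (Cfsg.Out S) := by
  have hinj : Function.Injective (MulAut.conjNormal : X →* MulAut S) := by
    rw [injective_iff_map_eq_one]
    intro g hg
    have : g ∈ Subgroup.centralizer (S : Set X) := by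
      rw [Subgroup.mem_centralizer_iff]
      intro s hs
      have h1 := congrArg (fun α : MulAut S => ((α ⟨s, hs⟩ : S) : X)) hg
      have h2 : g * s * g⁻¹ = s := by
        rw [← MulAut.conjNormal_apply g (⟨s, hs⟩ : S)]
        exact h1
      rw [mul_inv_eq_iff_eq_mul] at h2
      exact h2.symm
    rwa [hc, Subgroup.mem_bot] at this
  have h1 : Nat.card X ∣ Nat.card (MulAut S) := by
    rw [Nat.card_congr (MonoidHom.ofInjective hinj).toEquiv]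
    exact Subgroup.card_subgroup_dvd_card _
  rw [← Cfsg.Agent.H934.OutB.card_out_mul S hna, ← S.card_mul_index, mul_comm] at h1
  exact Nat.dvd_of_mul_dvd_mul_right Nat.card_pos h1

/-! ### estimates -/

theorem AA_four (u : ℕ) (hu : 1 ≤ u) : AA 4 (u + 1) =
    u ^ 4 * (u + 2) ^ 4 * ((u + 1) ^ 2 + 1) ^ 2 * ((u + 1) ^ 4 + (u + 1) ^ 2 + 1) * ((u + 1) ^ 4 + 1) := by
  have e : ∀ k x : ℕ, (u + 1) ^ k = x + 1 → (u + 1) ^ k - 1 = x := fun k x h => by omega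
  rw [AA]
  simp only [Finset.prod_range_succ, Finset.prod_range_zero, one_mul]
  rw [e (2 * (0 + 1)) (u * (u + 2)) (by ring), e (2 * (1 + 1)) (u * (u + 2) * ((u + 1) ^ 2 + 1)) (by ring),
    e (2 * (2 + 1)) (u * (u + 2) * ((u + 1) ^ 4 + (u + 1) ^ 2 + 1)) (by ring),
    e (2 * (3 + 1)) (u * (u + 2) * ((u + 1) ^ 2 + 1) * ((u + 1) ^ 4 + 1)) (by ring)]
  ring

theorem AA_lower (u : ℕ) (hu : 1 ≤ u) :
    3 * (u ^ 4 * (u + 2) ^ 4 * ((u + 1) ^ 2 + 1) ^ 6) ≤ 8 * AA 4 (u + 1) := by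
  rw [AA_four u hu]
  have h1 : 3 * ((u + 1) ^ 2 + 1) ^ 2 ≤ 4 * ((u + 1) ^ 4 + (u + 1) ^ 2 + 1) := by
    nlinarith [sq_nonneg (((u : ℤ) + 1) ^ 2 - 1), Nat.zero_le (u ^ 4), Nat.zero_le (u ^ 3), Nat.zero_le (u ^ 2)]
  have h2 : ((u + 1) ^ 2 + 1) ^ 2 ≤ 2 * ((u + 1) ^ 4 + 1) := by
    nlinarith [Nat.zero_le (u ^ 4), Nat.zero_le (u ^ 3), Nat.zero_le (u ^ 2)]
  calc 3 * (u ^ 4 * (u + 2) ^ 4 * ((u + 1) ^ 2 + 1) ^ 6)
      = u ^ 4 * (u + 2) ^ 4 * ((u + 1) ^ 2 + 1) ^ 2 * ((3 * ((u + 1) ^ 2 + 1) ^ 2) * (((u + 1) ^ 2 + 1) ^ 2)) := by ring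
    _ ≤ u ^ 4 * (u + 2) ^ 4 * ((u + 1) ^ 2 + 1) ^ 2 *
        ((4 * ((u + 1) ^ 4 + (u + 1) ^ 2 + 1)) * (2 * ((u + 1) ^ 4 + 1))) :=
        Nat.mul_le_mul_left _ (Nat.mul_le_mul h1 h2)
    _ = _ := by ring

/-- `q ≥ 4` -/
theorem big_odd {q : ℕ} (hq : 4 ≤ q) : 8 * (81 ^ 4 * (q + 1) ^ 32 * (64 * (q + 1) ^ 3)) < AA 4 q ^ 3 := by
  obtain ⟨u, rfl⟩ : ∃ u, q = u + 1 := ⟨q - 1, by omega⟩
  have h0 := AA_lower u (by omega)
  have h1 : 3 * (u + 2) ≤ 5 * u := by omega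
  have h2 : 17 * (u + 2) ^ 2 ≤ 25 * ((u + 1) ^ 2 + 1) := by
    obtain ⟨w, rfl⟩ := Nat.exists_eq_add_of_le' (show 3 ≤ u by omega)
    nlinarith
  generalize hA : AA 4 (u + 1) = A at *
  have h3 : 3 ^ 5 * 17 ^ 6 * (u + 2) ^ 20 ≤ 8 * 5 ^ 16 * A := by
    calc 3 ^ 5 * 17 ^ 6 * (u + 2) ^ 20 = 3 * ((3 * (u + 2)) ^ 4 * (u + 2) ^ 4 * (17 * (u + 2) ^ 2) ^ 6) := by ring
      _ ≤ 3 * ((5 * u) ^ 4 * (u + 2) ^ 4 * (25 * ((u + 1) ^ 2 + 1)) ^ 6) := by gcongr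
      _ = 5 ^ 16 * (3 * (u ^ 4 * (u + 2) ^ 4 * ((u + 1) ^ 2 + 1) ^ 6)) := by ring
      _ ≤ 5 ^ 16 * (8 * A) := Nat.mul_le_mul_left _ h0
      _ = _ := by ring
  have h4 := Nat.pow_le_pow_left h3 3
  have h5 : 5 ^ 25 ≤ (u + 2) ^ 25 := Nat.pow_le_pow_left (by omega) 25
  have h6 : (3 ^ 5 * 17 ^ 6) ^ 3 * 5 ^ 25 * (u + 2) ^ 35 ≤ (8 * 5 ^ 16) ^ 3 * A ^ 3 := by
    calc (3 ^ 5 * 17 ^ 6) ^ 3 * 5 ^ 25 * (u + 2) ^ 35 ≤ (3 ^ 5 * 17 ^ 6) ^ 3 * (u + 2) ^ 25 * (u + 2) ^ 35 := by gcongr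
      _ = (3 ^ 5 * 17 ^ 6 * (u + 2) ^ 20) ^ 3 := by ring
      _ ≤ (8 * 5 ^ 16 * A) ^ 3 := h4
      _ = _ := by ring
  have h7 : 0 < (u + 2) ^ 35 := Nat.pow_pos (Nat.succ_pos _)
  have h8 : (u + 1 + 1) = u + 2 := rfl
  have h9 : 8 * (81 ^ 4 * (u + 1 + 1) ^ 32 * (64 * (u + 1 + 1) ^ 3)) = 22039921152 * (u + 2) ^ 35 := by
    rw [h8]; ring
  rw [h9]
  norm_num at h6 ⊢
  generalize (u + 2) ^ 35 = B at *
  generalize A ^ 3 = C at *
  omega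

/-- `q ≥ 7` -/
theorem big_two {q : ℕ} (hq : 7 ≤ q) : 8 * ((64 * (q + 1) ^ 4) ^ 8 * (64 * (q + 1) ^ 3)) < AA 4 q ^ 3 := by
  obtain ⟨u, rfl⟩ : ∃ u, q = u + 1 := ⟨q - 1, by omega⟩
  have h0 := AA_lower u (by omega)
  have h1 : 3 * (u + 2) ≤ 4 * u := by omega
  have h2 : 25 * (u + 2) ^ 2 ≤ 32 * ((u + 1) ^ 2 + 1) := by
    obtain ⟨w, rfl⟩ := Nat.exists_eq_add_of_le' (show 6 ≤ u by omega)
    nlinarith
  generalize hA : AA 4 (u + 1) = A at *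
  have h3 : 3 ^ 5 * 25 ^ 6 * (u + 2) ^ 20 ≤ 8 * 4 ^ 4 * 32 ^ 6 * A := by
    calc 3 ^ 5 * 25 ^ 6 * (u + 2) ^ 20 = 3 * ((3 * (u + 2)) ^ 4 * (u + 2) ^ 4 * (25 * (u + 2) ^ 2) ^ 6) := by ring
      _ ≤ 3 * ((4 * u) ^ 4 * (u + 2) ^ 4 * (32 * ((u + 1) ^ 2 + 1)) ^ 6) := by gcongr
      _ = 4 ^ 4 * 32 ^ 6 * (3 * (u ^ 4 * (u + 2) ^ 4 * ((u + 1) ^ 2 + 1) ^ 6)) := by ring
      _ ≤ 4 ^ 4 * 32 ^ 6 * (8 * A) := Nat.mul_le_mul_left _ h0
      _ = _ := by ring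
  have h4 := Nat.pow_le_pow_left h3 3
  have h5 : 8 ^ 25 ≤ (u + 2) ^ 25 := Nat.pow_le_pow_left (by omega) 25
  have h6 : (3 ^ 5 * 25 ^ 6) ^ 3 * 8 ^ 25 * (u + 2) ^ 35 ≤ (8 * 4 ^ 4 * 32 ^ 6) ^ 3 * A ^ 3 := by
    calc (3 ^ 5 * 25 ^ 6) ^ 3 * 8 ^ 25 * (u + 2) ^ 35 ≤ (3 ^ 5 * 25 ^ 6) ^ 3 * (u + 2) ^ 25 * (u + 2) ^ 35 := by gcongr
      _ = (3 ^ 5 * 25 ^ 6 * (u + 2) ^ 20) ^ 3 := by ring
      _ ≤ (8 * 4 ^ 4 * 32 ^ 6 * A) ^ 3 := h4
      _ = _ := by ring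
  have h7 : 0 < (u + 2) ^ 35 := Nat.pow_pos (Nat.succ_pos _)
  have h8 : (u + 1 + 1) = u + 2 := rfl
  have h9 : 8 * ((64 * (u + 1 + 1) ^ 4) ^ 8 * (64 * (u + 1 + 1) ^ 3)) = 2 ^ 57 * (u + 2) ^ 35 := by
    rw [h8]; ring
  rw [h9]
  norm_num at h6 ⊢
  generalize (u + 2) ^ 35 = B at *
  generalize A ^ 3 = C at *
  omega

theorem en_three : ∀ a ∈ [(2, 14), (5, 2), (7, 1), (13, 1), (41, 1)], en 4 3 (AA 4 3 / 2) a.1 a.2 = true := by
  decide +kernel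

theorem en_five : en 4 5 (AA 4 5 / 2) 2 14 = true := by decide +kernel

/-! ### the estimate -/

/-- the end of the general estimate: `A = |S|`-part -/
theorem est {q A v B : ℕ} {X : Sh} {g MS I : ℕ} (hv : v.Prime) (hA0 : A ≠ 0) (hAA : AA 4 q ≤ 2 * A)
    (hX : Art.Real X v g MS) (hX2 : X ≠ .L 2)
    (hI : I ≤ dd X (v ^ g) * NN X * g) (hI0 : 0 < I) (hd : A ∣ I * MS)
    (hN : v ^ (g * NN X) ≤ P v A) (hN4 : g * NN X ≤ 4 * (q + 1)) (hB : P v A ^ 8 ≤ B)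
    (hlt : 8 * (B * (64 * (q + 1) ^ 3)) < AA 4 q ^ 3) : False := by
  obtain ⟨D, hD⟩ := P_dvd v A
  have hcop : Nat.Coprime D v := by
    have h1 : D = A / v ^ A.factorization v := by
      have h0 : 0 < v ^ A.factorization v := Nat.pow_pos hv.pos
      have h2 : A = v ^ A.factorization v * D := hD
      exact (Nat.div_eq_of_eq_mul_right h0 h2).symm
    rw [h1]
    exact Nat.Coprime.symm ((Nat.Prime.coprime_iff_not_dvd hv).2 (Nat.not_dvd_ordCompl hv hA0))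
  have hDd : D ∣ I * MS := (Dvd.intro_left _ hD.symm).trans hd
  have h1 := cube_num hX hX2 hI hI0 hcop hDd
  have h2 : AA 4 q ^ 3 ≤ 8 * (B * (64 * (q + 1) ^ 3)) := by
    calc AA 4 q ^ 3 ≤ (2 * A) ^ 3 := Nat.pow_le_pow_left hAA 3
      _ = 8 * (P v A ^ 3 * D ^ 3) := by rw [mul_pow, ← mul_pow (P v A), ← hD]; norm_num
      _ ≤ 8 * (P v A ^ 3 * ((v ^ (g * NN X)) ^ 5 * (g * NN X) ^ 3)) := by gcongr
      _ ≤ 8 * (P v A ^ 3 * ((P v A) ^ 5 * (4 * (q + 1)) ^ 3)) := by gcongr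
      _ = 8 * (P v A ^ 8 * (64 * (q + 1) ^ 3)) := by ring
      _ ≤ _ := by gcongr
  omega

/-- **E4.** -/
theorem no_cross_four {p f M κ : ℕ} {Γ : Type u} [Group Γ] [Finite Γ] {S : Subgroup Γ} (h : Dat 4 p f M κ Γ S)
    (h2 : p ^ f ≠ 2) {N : Grp} {X : Art.Sh} {v g : ℕ} (hN : IsLie N X v g)
    (hr : OrdDiv.Real N S) (hX : Art.Real X v g (Nat.card S)) (hX2 : X ≠ .L 2) (hvp : v ≠ p) : False := by
  have hnor := h.normal
  have hsim := h.simple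
  have hY := h.hY
  have hp := hY.hp
  have hv := hX.hp
  have hna : ¬ IsMulCommutative S := fun hc => h.nonab fun a b => hc.is_comm.comm a b
  have hidx : S.index ∣ Nat.card (Cfsg.Out S) := index_dvd S hna h.cent
  have h0 : 0 < Nat.card (Cfsg.Out S) := by
    have : Finite (MulAut S) := Finite.of_injective (fun f : MulAut S => (f : S → S)) DFunLike.coe_injective
    exact Nat.card_pos
  obtain ⟨c, hc1, hc2, -⟩ := Cfsg.Agent.H364.OutLie.card_out h.nonab hN hr hX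
  have hle : Nat.card (Cfsg.Out S) ≤ Art.dd X (v ^ g) * Art.NN X * g :=
    Cfsg.Agent.H364.SpOut.card_out_le h.nonab hN hr hX
  have hI : S.index ≤ Art.dd X (v ^ g) * Art.NN X * g := (Nat.le_of_dvd h0 hidx).trans hle
  have hI0 : 0 < S.index := Nat.pos_of_ne_zero Subgroup.index_ne_zero_of_finite
  have hI' : S.index ∣ 24 * Art.dd X (v ^ g) * g := by
    calc S.index ∣ Nat.card (Cfsg.Out S) := hidx
      _ = c * g := hc1
      _ ∣ 24 * Art.dd X (v ^ g) * g := Nat.mul_dvd_mul_right hc2 g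
  have hMS : Nat.card S ∣ M := by
    rw [← h.card, ← S.card_mul_index]
    exact Dvd.dvd.mul_left (Dvd.intro _ rfl) κ
  have hM0 := hY.M_ne
  have hq2 := hY.q_ge
  -- the order
  obtain ⟨A, hA⟩ : Nat.gcd 2 (p ^ f - 1) ∣ AA 4 (p ^ f) := by
    refine (Nat.gcd_dvd_right _ _).trans ?_
    rw [AA, Finset.prod_range_succ']
    refine Dvd.dvd.mul_left ?_ _
    have h3 : p ^ f - 1 ∣ (p ^ f) ^ (2 * (0 + 1)) - 1 := by
      have := Nat.sub_dvd_pow_sub_pow (p ^ f) 1 (2 * (0 + 1))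
      rwa [one_pow] at this
    exact h3
  have hgpos : 0 < Nat.gcd 2 (p ^ f - 1) := Nat.gcd_pos_of_pos_left _ (by norm_num)
  have hMA : M = (p ^ f) ^ 16 * A := by
    have h3 := hY.eq
    have h4 : dd (.C 4) (p ^ f) = Nat.gcd 2 (p ^ f - 1) := rfl
    have h5 : num (.C 4) (p ^ f) = AA 4 (p ^ f) := rfl
    have h6 : NN (.C 4) = 16 := rfl
    rw [h4, h5, h6, hA] at h3
    apply Nat.eq_of_mul_eq_mul_left hgpos
    rw [h3]; ring
  have hA0 : A ≠ 0 := by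
    rintro rfl
    exact hM0 (by rw [hMA, mul_zero])
  have hAAd : A ∣ AA 4 (p ^ f) := Dvd.intro_left _ hA.symm
  have hAp : ¬ p ∣ A := fun h3 => not_dvd_of_AA hq2 hp (h3.trans hAAd) (dvd_pow_self p (by have := hY.hf; omega))
  have hAk : Nat.Coprime A κ := by
    refine Nat.coprime_of_dvd fun l hl h3 h4 => ?_
    have h5 : l = p := by
      rcases h.kap l hl h4 with h5 | ⟨h5, -⟩ | ⟨h5, -⟩ | ⟨h5, -⟩
      · exact h5
      all_goals omega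
    subst h5
    exact hAp h3
  have hd : A ∣ S.index * Nat.card S := by
    have h3 : A ∣ κ * (Nat.card S * S.index) := by
      rw [S.card_mul_index, h.card, hMA]
      exact Dvd.intro_left _ rfl
    rw [mul_comm S.index]
    exact hAk.dvd_of_dvd_mul_left h3
  have hN1 : 1 ≤ g * NN X := Nat.mul_pos hX.hf (NN_pos hX)
  have hPM : v ^ (g * NN X) ≤ P v M := pow_le_P hX hY hMS
  have hvq := hY.not_dvd_q hv hvp
  have hPA : P v M = P v A := by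
    rw [hMA, P_mul (pow_ne_zero _ (by omega)) hA0, P_eq_one (fun h3 => hvq (hv.dvd_of_dvd_pow h3)), one_mul]
  have hAA2 : AA 4 (p ^ f) ≤ 2 * A := by
    rw [hA]
    exact Nat.mul_le_mul_right _ (Nat.le_of_dvd (by norm_num) (Nat.gcd_dvd_left _ _))
  have hAq : ∀ q, p ^ f = q → Nat.gcd 2 (q - 1) = 2 → A = AA 4 q / 2 := by
    intro q hq hg2
    subst hq
    rw [hA, hg2]
    omega
  by_cases h3 : p ^ f = 3
  · have hd' : AA 4 3 / 2 ∣ S.index * Nat.card S := by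
      rw [← hAq 3 h3 (by norm_num)]; exact hd
    have hvM : v ∣ M := by
      refine (dvd_trans ?_ (P_dvd v (Nat.card S))).trans hMS
      rw [hX.P_self, ← pow_mul]
      exact dvd_pow_self v (by omega)
    have hv3 : v ≠ 3 := by
      intro h4
      apply hvq
      rw [h3, h4]
    have hcases : v = 2 ∨ v = 5 ∨ v = 7 ∨ v = 13 ∨ v = 41 := by
      rw [M_eq hY h3] at hvM
      have e : cardC 4 3 = 3 ^ 16 * (2 ^ 14 * (5 ^ 2 * (7 * (13 * 41)))) := by decide +kernel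
      rw [e] at hvM
      rcases hv.dvd_mul.1 hvM with h4 | h4
      · exact absurd ((Nat.prime_dvd_prime_iff_eq hv Nat.prime_three).1 (hv.dvd_of_dvd_pow h4)) hv3
      rcases hv.dvd_mul.1 h4 with h4 | h4
      · exact Or.inl ((Nat.prime_dvd_prime_iff_eq hv Nat.prime_two).1 (hv.dvd_of_dvd_pow h4))
      rcases hv.dvd_mul.1 h4 with h4 | h4
      · exact Or.inr (Or.inl ((Nat.prime_dvd_prime_iff_eq hv Nat.prime_five).1 (hv.dvd_of_dvd_pow h4)))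
      rcases hv.dvd_mul.1 h4 with h4 | h4
      · exact Or.inr (Or.inr (Or.inl ((Nat.prime_dvd_prime_iff_eq hv (by norm_num)).1 h4)))
      rcases hv.dvd_mul.1 h4 with h4 | h4
      · exact Or.inr (Or.inr (Or.inr (Or.inl ((Nat.prime_dvd_prime_iff_eq hv (by norm_num)).1 h4))))
      · exact Or.inr (Or.inr (Or.inr (Or.inr ((Nat.prime_dvd_prime_iff_eq hv (by norm_num)).1 h4))))
    rcases hcases with rfl | rfl | rfl | rfl | rfl
    · exact en_false hY h3 hX hX2 hMS hI' hd' (en_three (2, 14) (by decide))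
    · exact en_false hY h3 hX hX2 hMS hI' hd' (en_three (5, 2) (by decide))
    · exact en_false hY h3 hX hX2 hMS hI' hd' (en_three (7, 1) (by decide))
    · exact en_false hY h3 hX hX2 hMS hI' hd' (en_three (13, 1) (by decide))
    · exact en_false hY h3 hX hX2 hMS hI' hd' (en_three (41, 1) (by decide))
  have hq4 : 4 ≤ p ^ f := by omega
  have hPle : P v A ≤ P v (AA 4 (p ^ f)) := P_mono hv (AA_ne hq2) hAAd
  have hNle : g * NN X ≤ 4 * (p ^ f + 1) := by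
    refine exp_le hv.two_le (Or.inl (by omega)) ?_
    rw [hPA] at hPM
    exact (hPM.trans hPle).trans (P_le_gen hv hq2 hvq (by omega))
  rw [hPA] at hPM
  by_cases hv2 : v = 2
  · subst hv2
    have hodd : Odd (p ^ f) := Nat.not_even_iff_odd.1 fun h => hvq h.two_dvd
    by_cases h5 : p ^ f = 5
    · have hd' : AA 4 5 / 2 ∣ S.index * Nat.card S := by
        rw [← hAq 5 h5 (by norm_num)]; exact hd
      exact en_false hY h5 hX hX2 hMS hI' hd' en_five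
    have h7 : 7 ≤ p ^ f := by
      obtain ⟨k, hk⟩ := hodd
      omega
    refine est (B := (64 * (p ^ f + 1) ^ 4) ^ 8) hv hA0 hAA2 hX hX2 hI hI0 hd hPM hNle ?_ (big_two h7)
    apply Nat.pow_le_pow_left
    have h8 := Cfsg.Agent.H364.SpSmall.P_two_le hY rfl hvp (by norm_num)
    rw [hPA] at h8
    refine h8.trans (le_of_eq ?_)
    rw [mul_pow]
    have : 4 ^ 4 * (p ^ f + 1) ^ 4 = 64 * (p ^ f + 1) ^ 4 * 4 := by ring
    rw [this, Nat.mul_div_cancel _ (by norm_num)]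
  · refine est (B := 81 ^ 4 * (p ^ f + 1) ^ 32) hv hA0 hAA2 hX hX2 hI hI0 hd hPM hNle ?_ (big_odd hq4)
    have h8 := P_odd_sq_le (n := 4) hv hv2 hq2 hvq
    have h9 : P v A ^ 2 ≤ 3 ^ 4 * (p ^ f + 1) ^ (2 * 4) := (Nat.pow_le_pow_left hPle 2).trans h8
    calc P v A ^ 8 = (P v A ^ 2) ^ 4 := by rw [← pow_mul]
      _ ≤ (3 ^ 4 * (p ^ f + 1) ^ (2 * 4)) ^ 4 := Nat.pow_le_pow_left h9 4
      _ = 81 ^ 4 * (p ^ f + 1) ^ 32 := by
        rw [mul_pow, ← pow_mul (p ^ f + 1)]; norm_num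

end Cfsg.Agent.H545.CS
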